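import Mathlib

/-! Common eigenvectors of commuting matrices. -/

set_option autoImplicit false

namespace Cfsg.Agent.H15M

open Matrix

theorem li {K W A ι : Type*} [Field K] [AddCommGroup W] [Module K W] (T : A → W →ₗ[K] W)
    (v : ι → W) (χ : ι → A → K) (h0 : ∀ i, v i ≠ 0) (he : ∀ i a, T a (v i) = χ i a • v i)
    (hd : Function.Injective χ) : LinearIndependent K v := by
  classical
  rw [linearIndependent_iff']
  intro s
  induction s using Finset.strongInduction with
  | H s ih =>
  intro g hg i hi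
  by_cases hs : ∃ j ∈ s, j ≠ i
  · obtain ⟨j, hj, hji⟩ := hs
    obtain ⟨a, ha⟩ := Function.ne_iff.1 (hd.ne hji)
    have := ih (s.erase j) (Finset.erase_ssubset hj) (fun k => g k * (χ k a - χ j a)) (by
      rw [Finset.sum_erase _ (by simp)]
      have := congrArg (fun w => T a w - χ j a • w) hg
      simp only [map_sum, map_smul, he, map_zero, smul_zero, sub_zero, Finset.smul_sum,
        ← Finset.sum_sub_distrib] at this
      rw [← this]
      refine Finset.sum_congr rfl fun k _ => ?_
      module) i (Finset.mem_erase.2 ⟨hji.symm, hi⟩)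
    exact (mul_eq_zero.1 this).resolve_right (sub_ne_zero.2 (Ne.symm ha))
  · push Not at hs
    rw [Finset.sum_eq_single_of_mem i hi (fun j hj h => (h (hs j hj)).elim)] at hg
    exact (smul_eq_zero.1 hg).resolve_right (h0 i)

theorem ex_eig {K V A : Type*} [Field K] [IsAlgClosed K] [AddCommGroup V] [Module K V]
    [FiniteDimensional K V] (f : A → Module.End K V) (hc : ∀ a b, f a * f b = f b * f a)
    (W : Submodule K V) (hW : W ≠ ⊥) (hi : ∀ a, ∀ w ∈ W, f a w ∈ W) :
    ∃ v ∈ W, v ≠ 0 ∧ ∃ χ : A → K, ∀ a, f a v = χ a • v := by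
  obtain ⟨U, ⟨hUW, hU0, hUi⟩, hmin⟩ := (wellFounded_lt (α := Submodule K V)).has_min
    {U | U ≤ W ∧ U ≠ ⊥ ∧ ∀ a, ∀ w ∈ U, f a w ∈ U} ⟨W, le_rfl, hW, hi⟩
  have key : ∀ a, ∃ μ : K, ∀ w ∈ U, f a w = μ • w := fun a => by
    haveI : Nontrivial U := Submodule.nontrivial_iff_ne_bot.2 hU0
    obtain ⟨μ, hμ⟩ := Module.End.exists_eigenvalue ((f a).restrict (hUi a))
    obtain ⟨w, hw⟩ := hμ.exists_hasEigenvector
    have hw1 : f a w = μ • (w : V) := congrArg Subtype.val hw.apply_eq_smul
    have : U ⊓ Module.End.eigenspace (f a) μ = U := by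
      by_contra hne
      refine hmin _ ⟨inf_le_left.trans hUW, fun e => hw.2 (Subtype.ext ?_), fun b x hx =>
        ⟨hUi b x hx.1, ?_⟩⟩ (lt_of_le_of_ne inf_le_left hne)
      · exact (Submodule.mem_bot K).1 (e.le ⟨w.2, Module.End.mem_eigenspace_iff.2 hw1⟩)
      · refine Module.End.mem_eigenspace_iff.2 ?_
        have h1 := Module.End.mem_eigenspace_iff.1 hx.2
        rw [← Module.End.mul_apply, hc, Module.End.mul_apply, h1, map_smul]
    exact ⟨μ, fun x hx => Module.End.mem_eigenspace_iff.1 (this.ge hx).2⟩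
  choose χ hχ using key
  obtain ⟨v, hv, hv0⟩ := Submodule.exists_mem_ne_zero_of_ne_bot hU0
  exact ⟨v, hUW hv, hv0, χ, fun a => hχ a v hv⟩

theorem b0 {F R : Type*} [Field F] [AddCommGroup R] (l : R → Matrix (Fin 3) (Fin 3) F)
    (l0 : l 0 = 1) (la : ∀ a b, l (a + b) = l a * l b) (s : ℕ) (hs : (s : F) ≠ 0)
    (hR : ∀ b : R, s • b = 0) (h k : Fin 4 → Matrix (Fin 3) (Fin 3) F) (hk : ∀ i, k i * h i = 1)
    (c : Fin 4 → R → R) (hc : ∀ i b, l b * h i = h i * l (c i b))
    (hsur : ∀ i j, i ≠ j → ∀ y, ∃ b, c i b = y + c j b) (b₁ : R) : l b₁ = 1 := by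
  by_contra hne
  let K := AlgebraicClosure F
  let φ : Matrix (Fin 3) (Fin 3) F →+* Module.End K (Fin 3 → K) :=
    (Matrix.toLinAlgEquiv' : Matrix (Fin 3) (Fin 3) K ≃ₐ[K] _).toRingEquiv.toRingHom.comp
      (algebraMap F K).mapMatrix
  have hφ : Function.Injective φ := (Matrix.toLinAlgEquiv' : Matrix (Fin 3) (Fin 3) K ≃ₐ[K] _).injective.comp
    (Matrix.map_injective (algebraMap F K).injective)
  have lc : ∀ a b, φ (l a) * φ (l b) = φ (l b) * φ (l a) := fun a b => by
    rw [← map_mul, ← map_mul, ← la, ← la, add_comm]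
  have lp : ∀ (n : ℕ) b, l (n • b) = l b ^ n := fun n b => by
    induction n with
    | zero => simp [l0]
    | succ n ih => rw [succ_nsmul, la, ih, pow_succ]
  obtain ⟨v, ⟨w, hw⟩, hv0, χ, hχ⟩ := ex_eig (fun a => φ (l a)) lc (LinearMap.range (φ (l b₁) - 1))
    (fun e => hne (hφ (by rw [map_one]; exact sub_eq_zero.1 (LinearMap.range_eq_bot.1 e))))
    (by
      rintro a _ ⟨w, rfl⟩
      refine ⟨φ (l a) w, ?_⟩
      rw [← Module.End.mul_apply, ← Module.End.mul_apply, sub_mul, mul_sub, lc, one_mul, mul_one])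
  have inj : ∀ x y : K, x • v = y • v → x = y := fun x y e => smul_left_injective K hv0 e
  have χa : ∀ a b, χ (a + b) = χ a * χ b := fun a b => inj _ _ (by
    rw [← hχ, la, map_mul, Module.End.mul_apply, hχ, map_smul, hχ, smul_smul, mul_comm])
  have χ0 : χ 0 = 1 := inj _ _ (by rw [← hχ, l0, map_one, one_smul]; rfl)
  have χ1 : χ b₁ ≠ 1 := fun e => by
    have h1 := congrArg (fun X => X w) (geom_sum_mul (φ (l b₁)) s)
    simp only [Module.End.mul_apply, hw] at h1
    rw [← map_pow, ← lp, hR, l0, map_one, sub_self, LinearMap.sum_apply] at h1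
    have h2 : ∀ i : ℕ, (φ (l b₁) ^ i) v = v := fun i => by
      induction i with
      | zero => rfl
      | succ n ih => rw [pow_succ, Module.End.mul_apply, hχ, e, one_smul, ih]
    simp only [h2, Finset.sum_const, Finset.card_range, LinearMap.zero_apply] at h1
    rw [← Nat.cast_smul_eq_nsmul K, smul_eq_zero] at h1
    exact h1.elim (fun e => hs ((algebraMap F K).injective (by rw [map_natCast, e, map_zero]))) hv0
  have := (li (fun a => φ (l a)) (fun i => φ (h i) v) (fun i a => χ (c i a)) (fun i e => hv0 (by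
      have := congrArg (φ (k i)) e
      rwa [← Module.End.mul_apply, ← map_mul, hk, map_one, map_zero] at this))
    (fun i a => by
      rw [← Module.End.mul_apply, ← map_mul, hc, map_mul, Module.End.mul_apply, hχ, map_smul])
    (fun i j e => by
      by_contra hij
      obtain ⟨b, hb⟩ := hsur i j hij b₁
      have h1 : χ (c i b) = χ (c j b) := congrFun e b
      have h2 := χa (c j b) (-c j b)
      rw [add_neg_cancel, χ0] at h2
      rw [hb, χa] at h1
      exact χ1 (by linear_combination χ (-c j b) * h1 + (χ b₁ - 1) * h2))).fintype_card_le_finrank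
  simp at this

theorem b1 {F R : Type*} [Field F] [Fintype R] (U U' : R → Matrix (Fin 3) (Fin 3) F)
    (hU : ∀ a, U a * U' a = 1) (ζ : R → R → F) (h : ∀ a b, U a * U b = ζ b a • (U b * U a))
    (hd : Function.Injective ζ) : Fintype.card R ≤ 9 := by
  have := (li (fun a => LinearMap.mulLeftRight F (U a, U' a)) U ζ (fun i e => by
      have := hU i
      rw [e, zero_mul] at this
      exact zero_ne_one this)
    (fun i a => by
      rw [LinearMap.mulLeftRight_apply, h, smul_mul_assoc, mul_assoc, hU, mul_one]) hd).fintype_card_le_finrank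
  simpa [Module.finrank_matrix] using this

end Cfsg.Agent.H15M
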