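import Cfsg.Agent.H15M.A

/-! Central extensions inside `SL₃`: lifts, four-groups and involution centralizers. -/

set_option autoImplicit false

namespace Cfsg.Agent.H15M

open Matrix Subgroup
open scoped MatrixGroups

variable {G S F : Type*} [Group G] [Group S] [Field F]

structure Ct (ρ : G →* Matrix (Fin 3) (Fin 3) F) (π : G →* S) : Prop where
  inj : Function.Injective ρ
  det : ∀ g, (ρ g).det = 1
  two : (2 : F) ≠ 0
  ntv : ∀ g, (ρ g - 1) * (ρ g - 1) = 0 → g = 1
  n1 : ∀ g (x y : F), (ρ g - x • 1) * (ρ g - y • 1) = 0 → x ^ 2 + y ^ 2 = 0 → π g = 1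
  surj : Function.Surjective π
  ker : ∀ g, π g = 1 ↔ ∃ c : F, ρ g = c • 1

theorem tr_inv {M : Matrix (Fin 3) (Fin 3) F} (h : M * M = 1) (hd : M.det = 1) (h1 : M ≠ 1) :
    M.trace = -1 := by
  have ha : M.adjugate = M := by
    rw [← mul_one M.adjugate, ← h, ← mul_assoc, adjugate_mul, hd, one_smul, one_mul]
  have id : M.adjugate = M * M - M.trace • M + M.adjugate.trace • 1 := by
    ext i j
    fin_cases i <;> fin_cases j <;>
      simp [adjugate_fin_three, mul_apply, Fin.sum_univ_three, trace_fin_three] <;> ring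
  rw [ha, h] at id
  have : (1 + M.trace) • (M - 1) = 0 := by
    linear_combination (norm := module) id
  exact eq_neg_of_add_eq_zero_right ((smul_eq_zero.1 this).resolve_right (sub_ne_zero.2 h1))

theorem ex_vec {T U : Matrix (Fin 3) (Fin 3) F} (hT : T * T = 1) (hU : U * U = 1)
    (hc : T * U = U * T) (a b : F) (ha : a * a = 1) (hb : b * b = 1)
    (h : 3 + a * T.trace + b * U.trace + a * b * (T * U).trace ≠ 0) :
    ∃ v : Fin 3 → F, v ≠ 0 ∧ T *ᵥ v = a • v ∧ U *ᵥ v = b • v := by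
  let X := (1 + a • T) * (1 + b • U)
  have e : X = 1 + a • T + b • U + (a * b) • (T * U) := by
    simp only [X, add_mul, mul_add, one_mul, mul_one, smul_mul_assoc, mul_smul_comm]
    module
  have h0 : X ≠ 0 := fun e0 => h (by
    have := congrArg trace e
    rw [e0] at this
    simpa [trace_add, trace_smul] using this.symm)
  have h1 : T * X = a • X := by
    rw [e]
    simp only [mul_add, smul_add, mul_one, mul_smul_comm, smul_smul, hT, ← mul_assoc, one_mul, ha]
    rw [mul_comm a b]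
    module
  have h2 : U * X = b • X := by
    rw [e, hc]
    simp only [mul_add, smul_add, mul_one, mul_smul_comm, smul_smul, hU, ← mul_assoc, one_mul, hb,
      show b * a * b = a by linear_combination a * hb]
    rw [mul_comm b a]
    module
  obtain ⟨w, hw⟩ : ∃ w, X *ᵥ w ≠ 0 := by
    by_contra hn
    push Not at hn
    exact h0 (Matrix.toLin'.injective (LinearMap.ext fun w => by simpa using hn w))
  exact ⟨_, hw, by rw [mulVec_mulVec, h1, smul_mulVec], by rw [mulVec_mulVec, h2, smul_mulVec]⟩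

theorem ex_basis (h2 : (2 : F) ≠ 0) {T U : Matrix (Fin 3) (Fin 3) F} (hT : T * T = 1)
    (hU : U * U = 1) (hc : T * U = U * T) (t1 : T.trace = -1) (t2 : U.trace = -1)
    (t3 : (T * U).trace = -1) : ∃ k k' : Matrix (Fin 3) (Fin 3) F, k * k' = 1 ∧ k' * k = 1 ∧
      k' * T * k = diagonal ![1, -1, -1] ∧ k' * U * k = diagonal ![-1, 1, -1] := by
  have h4 : (4 : F) ≠ 0 := by
    rw [show (4 : F) = 2 * 2 by norm_num]; exact mul_ne_zero h2 h2
  obtain ⟨a, a0, a1, a2⟩ := ex_vec hT hU hc 1 (-1) (by simp) (by simp)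
    (by rw [t1, t2, t3]; convert h4 using 1; ring)
  obtain ⟨b, b0, b1, b2⟩ := ex_vec hT hU hc (-1) 1 (by simp) (by simp)
    (by rw [t1, t2, t3]; convert h4 using 1; ring)
  obtain ⟨c, c0, c1, c2⟩ := ex_vec hT hU hc (-1) (-1) (by simp) (by simp)
    (by rw [t1, t2, t3]; convert h4 using 1; ring)
  let k : Matrix (Fin 3) (Fin 3) F := (Matrix.of ![a, b, c])ᵀ
  have kv : ∀ w, k *ᵥ w = w 0 • a + w 1 • b + w 2 • c := fun w => by
    ext i; simp [k, mulVec, dotProduct, Fin.sum_univ_three, mul_comm]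
  have hd : k.det ≠ 0 := fun e => by
    obtain ⟨w, w0, hw⟩ := exists_mulVec_eq_zero_iff.2 e
    rw [kv] at hw
    have e1 := congrArg (T *ᵥ ·) hw
    have e2 := congrArg (U *ᵥ ·) hw
    simp only [mulVec_add, mulVec_smul, a1, a2, b1, b2, c1, c2, mulVec_zero] at e1 e2
    have f1 : (2 * w 0) • a = 0 := by linear_combination (norm := module) hw + e1
    have f2 : (2 * w 1) • b = 0 := by linear_combination (norm := module) hw + e2
    have f3 : (2 * w 2) • c = 0 := by linear_combination (norm := module) -e1 - e2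
    simp only [smul_eq_zero, a0, b0, c0, mul_eq_zero, h2, or_false, false_or] at f1 f2 f3
    exact w0 (by ext i; fin_cases i <;> simp [f1, f2, f3])
  have hu : IsUnit k.det := hd.isUnit
  refine ⟨k, k⁻¹, mul_nonsing_inv _ hu, nonsing_inv_mul _ hu, ?_, ?_⟩
  · rw [mul_assoc, show T * k = k * diagonal ![1, -1, -1] from ?_, nonsing_inv_mul_cancel_left _ _ hu]
    refine Matrix.toLin'.injective (LinearMap.ext fun w => ?_)
    simp only [toLin'_apply, ← mulVec_mulVec, kv, mulVec_add, mulVec_smul, a1, b1, c1]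
    simp [mulVec_diagonal]
  · rw [mul_assoc, show U * k = k * diagonal ![-1, 1, -1] from ?_, nonsing_inv_mul_cancel_left _ _ hu]
    refine Matrix.toLin'.injective (LinearMap.ext fun w => ?_)
    simp only [toLin'_apply, ← mulVec_mulVec, kv, mulVec_add, mulVec_smul, a2, b2, c2]
    simp [mulVec_diagonal]

namespace Ct

variable {ρ : G →* Matrix (Fin 3) (Fin 3) F} {π : G →* S} (h : Ct ρ π)
include h

theorem cent {z : G} (hz : π z = 1) (g : G) : z * g = g * z := by
  obtain ⟨c, hc⟩ := (h.ker z).1 hz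
  exact h.inj (by simp [hc])

theorem cube {z : G} (hz : π z = 1) : z ^ 3 = 1 := by
  obtain ⟨c, hc⟩ := (h.ker z).1 hz
  have := h.det z
  rw [hc, det_smul, det_one, mul_one, Fintype.card_fin] at this
  exact h.inj (by rw [map_pow, hc, smul_pow, this, one_pow, one_smul, map_one])

theorem eq_one {z : G} (hz : π z = 1) {m : ℕ} (hm : m.Coprime 3) (e : z ^ m = 1) : z = 1 :=
  orderOf_eq_one_iff.1 (Nat.eq_one_of_dvd_coprimes hm (orderOf_dvd_of_pow_eq_one e)
    (orderOf_dvd_of_pow_eq_one (h.cube hz)))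

theorem lift {s : S} {m : ℕ} (hm : m.Coprime 3) (e : s ^ m = 1) : ∃ g, π g = s ∧ g ^ m = 1 := by
  obtain ⟨g, rfl⟩ := h.surj s
  obtain ⟨j, hj⟩ := exists_pow_eq_self_of_coprime (x := π g) (n := 3)
    (hm.symm.coprime_dvd_right (orderOf_dvd_of_pow_eq_one e))
  refine ⟨(g ^ 3) ^ j, by simpa using hj, ?_⟩
  have := h.cube (z := g ^ m) (by simpa using e)
  rw [← pow_mul, ← pow_mul, show 3 * (j * m) = m * 3 * j by ring, pow_mul, pow_mul, this, one_pow]

theorem uniq {g g' : G} {m : ℕ} (hm : m.Coprime 3) (e : g ^ m = 1) (e' : g' ^ m = 1)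
    (hg : π g = π g') : g = g' := by
  have hz : π (g * g'⁻¹) = 1 := by simp [hg]
  have := (Commute.mul_pow (h.cent hz g') m)
  rw [inv_mul_cancel_right, e, e', mul_one] at this
  exact mul_inv_eq_one.1 (h.eq_one hz hm this.symm)

theorem comm {g k : G} {m : ℕ} (hm : m.Coprime 3) (e : g ^ m = 1)
    (hg : π k * π g = π g * π k) : k * g = g * k :=
  mul_inv_eq_iff_eq_mul.1 (h.uniq hm (by rw [conj_pow, e]; simp) e (by simp [hg]))

theorem conj (k k' : Matrix (Fin 3) (Fin 3) F) (h1 : k * k' = 1) (h2 : k' * k = 1) :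
    ∃ ρ' : G →* Matrix (Fin 3) (Fin 3) F, Ct ρ' π ∧ (∀ g, ρ' g = k' * ρ g * k) ∧
      ∀ g, ρ g = k * ρ' g * k' := by
  have c : ∀ X, k * (k' * X * k) * k' = X := fun X => by
    rw [← mul_assoc, ← mul_assoc, h1, one_mul, mul_assoc, h1, mul_one]
  have c2 : ∀ X Y, k' * X * k * (k' * Y * k) = k' * (X * Y) * k := fun X Y => by
    rw [mul_assoc, ← mul_assoc k, ← mul_assoc k, h1, one_mul]; simp only [mul_assoc]
  have c3 : ∀ X (x : F), k' * X * k - x • 1 = k' * (X - x • 1) * k := fun X x => by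
    rw [mul_sub, sub_mul, mul_smul_comm, mul_one, smul_mul_assoc, h2]
  have c4 : ∀ X, k' * X * k = 0 → X = 0 := fun X e => by rw [← c X, e]; simp
  let ρ' : G →* Matrix (Fin 3) (Fin 3) F :=
    { toFun := fun g => k' * ρ g * k
      map_one' := by simp [h2]
      map_mul' := fun a b => by rw [c2, map_mul] }
  have e : ∀ g, ρ' g = k' * ρ g * k := fun _ => rfl
  refine ⟨ρ', ⟨fun a b hab => h.inj (by rw [← c (ρ a), ← c (ρ b), ← e, ← e, hab]), fun g => ?_, h.two,
    fun g hg => h.ntv g (c4 _ ?_), fun g x y hg => h.n1 g x y (c4 _ ?_), h.surj, fun g => ?_⟩, e,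
    fun g => (c _).symm⟩
  · rw [e, det_mul, det_mul, h.det, mul_one, ← det_mul, h2, det_one]
  · have := c3 (ρ g) 1
    rw [one_smul] at this
    rwa [e, this, c2] at hg
  · rwa [e, c3, c3, c2] at hg
  · rw [h.ker]
    refine exists_congr fun x => ⟨fun hx => ?_, fun hx => ?_⟩
    · rw [e, hx, mul_smul_comm, mul_one, smul_mul_assoc, h2]
    · rw [← c (ρ g), ← e, hx, mul_smul_comm, mul_one, smul_mul_assoc, h1]

theorem diag {t u : G} (t2 : t * t = 1) (u2 : u * u = 1) (t1 : t ≠ 1) (u1 : u ≠ 1) (tu : t ≠ u)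
    (hc : t * u = u * t) : ∃ (ρ' : G →* Matrix (Fin 3) (Fin 3) F) (k k' : Matrix (Fin 3) (Fin 3) F),
      Ct ρ' π ∧ k * k' = 1 ∧ k' * k = 1 ∧ (∀ g, ρ' g = k' * ρ g * k) ∧ (∀ g, ρ g = k * ρ' g * k') ∧
      ρ' t = diagonal ![1, -1, -1] ∧ ρ' u = diagonal ![-1, 1, -1] := by
  have tr : ∀ g, g * g = 1 → g ≠ 1 → (ρ g).trace = -1 := fun g a b =>
    tr_inv (by rw [← map_mul, a, map_one]) (h.det g) fun e => b (h.inj (by rw [e, map_one]))
  obtain ⟨k, k', h1, h2, h3, h4⟩ := ex_basis h.two (T := ρ t) (U := ρ u) (by rw [← map_mul, t2, map_one])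
    (by rw [← map_mul, u2, map_one]) (by rw [← map_mul, hc, map_mul]) (tr t t2 t1) (tr u u2 u1)
    (by
      rw [← map_mul]
      refine tr _ ?_ fun e => tu ?_
      · rw [mul_assoc, ← mul_assoc u, ← hc, mul_assoc, u2, mul_one, t2]
      · rw [← mul_one t, ← u2, ← mul_assoc, e, one_mul])
  obtain ⟨ρ', a, b, c⟩ := h.conj k k' h1 h2
  exact ⟨ρ', k, k', a, h1, h2, b, c, by rw [b, h3], by rw [b, h4]⟩

theorem blk {t g : G} (ht : ρ t = diagonal ![1, -1, -1]) (hc : g * t = t * g) :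
    ρ g 0 1 = 0 ∧ ρ g 0 2 = 0 ∧ ρ g 1 0 = 0 ∧ ρ g 2 0 = 0 := by
  have e := congrArg ρ hc
  rw [map_mul, map_mul, ht] at e
  have k : ∀ x : F, -x = x → x = 0 := fun x hx =>
    (mul_eq_zero.1 (by linear_combination -hx : 2 * x = 0)).resolve_left h.two
  refine ⟨k _ ?_, k _ ?_, k _ ?_, k _ ?_⟩
  · simpa using congrFun (congrFun e 0) 1
  · simpa using congrFun (congrFun e 0) 2
  · simpa using (congrFun (congrFun e 1) 0).symm
  · simpa using (congrFun (congrFun e 2) 0).symm

theorem dg {t u g : G} (ht : ρ t = diagonal ![1, -1, -1]) (hu : ρ u = diagonal ![-1, 1, -1])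
    (hc : g * t = t * g) (hc' : g * u = u * g) : ∃ a b c, ρ g = diagonal ![a, b, c] := by
  obtain ⟨a, b, c, d⟩ := h.blk ht hc
  have e := congrArg ρ hc'
  rw [map_mul, map_mul, hu] at e
  have k : ∀ x : F, -x = x → x = 0 := fun x hx =>
    (mul_eq_zero.1 (by linear_combination -hx : 2 * x = 0)).resolve_left h.two
  have e1 := k (ρ g 1 2) (by simpa using congrFun (congrFun e 1) 2)
  have e2 := k (ρ g 2 1) (by simpa using (congrFun (congrFun e 2) 1).symm)
  refine ⟨ρ g 0 0, ρ g 1 1, ρ g 2 2, ?_⟩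
  ext i j
  fin_cases i <;> fin_cases j <;> simp [*]

end Ct

end Cfsg.Agent.H15M
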