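import Cfsg.Agent.H15M.B

/-! Four-groups and involution centralizers. -/

set_option autoImplicit false

namespace Cfsg.Agent.H15M

open Matrix Subgroup
open scoped MatrixGroups

variable {G S F : Type*} [Group G] [Group S] [Field F]

namespace Ct

variable {ρ : G →* Matrix (Fin 3) (Fin 3) F} {π : G →* S} (h : Ct ρ π)
include h

theorem hom4 {g : G} {d : Fin 3 → F} (hg : ρ g = diagonal d) (x y : F)
    (hd : ∀ i, d i = x ∨ d i = y) (hxy : x ^ 2 + y ^ 2 = 0) (g4 : g ^ 4 = 1) (i : Fin 3)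
    (hi : d i ^ 2 = -1) : False := by
  have e : ∀ z : F, diagonal d - z • 1 = diagonal fun i => d i - z := fun z => by
    rw [← diagonal_one, ← diagonal_smul, diagonal_sub]; simp
  have := h.eq_one (h.n1 g x y (by
    rw [hg, e, e, diagonal_mul_diagonal, ← diagonal_zero]
    congr 1
    ext i
    rcases hd i with e | e <;> simp [e]) hxy) (by norm_num : Nat.Coprime 4 3) g4
  rw [this, map_one] at hg
  have h1 : d i = 1 := by simpa using (congrFun (congrFun hg i) i).symm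
  rw [h1] at hi
  exact h.two (by linear_combination hi)

theorem sq4 {t u g : G} (ht : ρ t = diagonal ![1, -1, -1]) (hu : ρ u = diagonal ![-1, 1, -1])
    (hc : g * t = t * g) (hc' : g * u = u * g) (g4 : g ^ 4 = 1) : g * g = 1 := by
  obtain ⟨a, b, c, hg⟩ := h.dg ht hu hc hc'
  have t2 : t ^ 2 = 1 := h.inj (by
    rw [map_pow, ht, diagonal_pow, map_one, ← diagonal_one]; congr 1; ext i; fin_cases i <;> simp)
  have u2 : u ^ 2 = 1 := h.inj (by
    rw [map_pow, hu, diagonal_pow, map_one, ← diagonal_one]; congr 1; ext i; fin_cases i <;> simp)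
  have gt : (g * t) ^ 4 = 1 := by
    rw [Commute.mul_pow hc, g4, show 4 = 2 * 2 from rfl, pow_mul, t2]; simp
  have gu : (g * u) ^ 4 = 1 := by
    rw [Commute.mul_pow hc', g4, show 4 = 2 * 2 from rfl, pow_mul, u2]; simp
  have et : ρ (g * t) = diagonal ![a, -b, -c] := by
    rw [map_mul, hg, ht, diagonal_mul_diagonal]; congr 1; ext i; fin_cases i <;> simp
  have eu : ρ (g * u) = diagonal ![-a, b, -c] := by
    rw [map_mul, hg, hu, diagonal_mul_diagonal]; congr 1; ext i; fin_cases i <;> simp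
  have e4 := congrArg ρ g4
  rw [map_pow, hg, diagonal_pow, map_one] at e4
  have hd := h.det g
  rw [hg, det_diagonal, Fin.prod_univ_three] at hd
  simp only [cons_val_zero, cons_val_one, cons_val] at hd
  have sq : ∀ x : F, x ^ 4 = 1 → x ^ 2 = 1 ∨ x ^ 2 = -1 := fun x hx =>
    sq_eq_sq_iff_eq_or_eq_neg.1 (by rw [← pow_mul, hx, one_pow])
  have d2 : a ^ 2 * b ^ 2 * c ^ 2 = 1 := by rw [← mul_pow, ← mul_pow, hd, one_pow]
  have n2 : (-1 : F) ≠ 1 := fun e => h.two (by linear_combination -e)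
  rcases sq a (by simpa using congrFun (congrFun e4 0) 0) with ha | ha <;>
  rcases sq b (by simpa using congrFun (congrFun e4 1) 1) with hb | hb <;>
  rcases sq c (by simpa using congrFun (congrFun e4 2) 2) with hc | hc <;>
  rw [ha, hb, hc] at d2
  · refine h.inj ?_
    rw [map_mul, hg, diagonal_mul_diagonal, map_one, ← diagonal_one]
    congr 1; ext i; fin_cases i <;> simp [← pow_two, ha, hb, hc]
  · exact (n2 (by simpa using d2)).elim
  · exact (n2 (by simpa using d2)).elim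
  · rcases sq_eq_sq_iff_eq_or_eq_neg.1 (hc.trans hb.symm) with e | e
    · exact (h.hom4 hg a b (fun i => by fin_cases i <;> simp [e]) (by rw [ha, hb]; ring) g4 1 hb).elim
    · exact (h.hom4 eu (-a) b (fun i => by fin_cases i <;> simp [e]) (by rw [neg_sq, ha, hb]; ring)
        gu 1 hb).elim
  · exact (n2 (by simpa using d2)).elim
  · rcases sq_eq_sq_iff_eq_or_eq_neg.1 (hc.trans ha.symm) with e | e
    · exact (h.hom4 hg a b (fun i => by fin_cases i <;> simp [e]) (by rw [ha, hb]; ring) g4 0 ha).elim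
    · exact (h.hom4 et a (-b) (fun i => by fin_cases i <;> simp [e]) (by rw [neg_sq, ha, hb]; ring)
        gt 0 ha).elim
  · rcases sq_eq_sq_iff_eq_or_eq_neg.1 (hb.trans ha.symm) with e | e
    · exact (h.hom4 hg a c (fun i => by fin_cases i <;> simp [e]) (by rw [ha, hc]; ring) g4 0 ha).elim
    · exact (h.hom4 et a (-c) (fun i => by fin_cases i <;> simp [e]) (by rw [neg_sq, ha, hc]; ring)
        gt 0 ha).elim
  · exact (n2 (by simpa using d2)).elim

theorem cv2G {t u g : G} (t2 : t * t = 1) (u2 : u * u = 1) (t1 : t ≠ 1) (u1 : u ≠ 1) (tu : t ≠ u)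
    (hc : t * u = u * t) (gt : g * t = t * g) (gu : g * u = u * g) {m : ℕ} (hm : g ^ 2 ^ m = 1) :
    g = 1 ∨ g = t ∨ g = u ∨ g = t * u := by
  obtain ⟨ρ', -, -, h', -, -, -, -, ht, hu⟩ := h.diag t2 u2 t1 u1 tu hc
  have g2 : g * g = 1 := by
    induction m generalizing g with
    | zero => rw [show g = 1 by simpa using hm, one_mul]
    | succ n ih =>
      refine h'.sq4 ht hu gt gu ?_
      have := ih (g := g * g) (Commute.mul_left gt gt) (Commute.mul_left gu gu)
        (by rw [← pow_two, ← pow_mul, ← pow_succ', hm])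
      rw [← this]; simp [pow_succ, mul_assoc]
  obtain ⟨a, b, c, hg⟩ := h'.dg ht hu gt gu
  have e2 := congrArg ρ' g2
  rw [map_mul, hg, diagonal_mul_diagonal, map_one] at e2
  have hd := h'.det g
  rw [hg, det_diagonal, Fin.prod_univ_three] at hd
  simp only [cons_val_zero, cons_val_one, cons_val] at hd
  have n2 : (-1 : F) ≠ 1 := fun e => h.two (by linear_combination -e)
  have e1 : ρ' 1 = diagonal ![1, 1, 1] := by
    rw [map_one, ← diagonal_one]; congr 1; ext i; fin_cases i <;> simp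
  have e3 : ρ' (t * u) = diagonal ![-1, -1, 1] := by
    rw [map_mul, ht, hu, diagonal_mul_diagonal]; congr 1; ext i; fin_cases i <;> simp
  rcases mul_self_eq_one_iff.1 (show a * a = 1 by simpa using congrFun (congrFun e2 0) 0) with
    rfl | rfl <;>
  rcases mul_self_eq_one_iff.1 (show b * b = 1 by simpa using congrFun (congrFun e2 1) 1) with
    rfl | rfl <;>
  rcases mul_self_eq_one_iff.1 (show c * c = 1 by simpa using congrFun (congrFun e2 2) 2) with
    rfl | rfl <;>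
  first
  | exact (n2 (by simpa using hd)).elim
  | exact .inl (h'.inj (hg.trans e1.symm))
  | exact .inr (.inl (h'.inj (hg.trans ht.symm)))
  | exact .inr (.inr (.inl (h'.inj (hg.trans hu.symm))))
  | exact .inr (.inr (.inr (h'.inj (hg.trans e3.symm))))

theorem lift2 {t u : S} (t2 : t * t = 1) (u2 : u * u = 1) (t1 : t ≠ 1) (u1 : u ≠ 1) (tu : t ≠ u)
    (hc : t * u = u * t) : ∃ a b : G, π a = t ∧ π b = u ∧ a * a = 1 ∧ b * b = 1 ∧ a ≠ 1 ∧ b ≠ 1 ∧
      a ≠ b ∧ a * b = b * a := by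
  obtain ⟨a, rfl, a2⟩ := h.lift (s := t) (m := 2) (by norm_num) (by rw [pow_two, t2])
  obtain ⟨b, rfl, b2⟩ := h.lift (s := u) (m := 2) (by norm_num) (by rw [pow_two, u2])
  exact ⟨a, b, rfl, rfl, by rw [← pow_two, a2], by rw [← pow_two, b2], fun e => t1 (by simp [e]),
    fun e => u1 (by simp [e]), fun e => tu (by rw [e]), h.comm (by norm_num) b2 hc⟩

theorem cv2 {t u g : S} (t2 : t * t = 1) (u2 : u * u = 1) (t1 : t ≠ 1) (u1 : u ≠ 1) (tu : t ≠ u)
    (hc : t * u = u * t) (gt : g * t = t * g) (gu : g * u = u * g) {m : ℕ} (hm : g ^ 2 ^ m = 1) :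
    g = 1 ∨ g = t ∨ g = u ∨ g = t * u := by
  obtain ⟨a, b, rfl, rfl, a2, b2, a1, b1, ab, c⟩ := h.lift2 t2 u2 t1 u1 tu hc
  obtain ⟨x, rfl, hx⟩ := h.lift (Nat.Coprime.pow_left m (by norm_num)) hm
  rcases h.cv2G a2 b2 a1 b1 ab c (h.comm (m := 2) (by norm_num) (by rw [pow_two, a2]) gt)
    (h.comm (m := 2) (by norm_num) (by rw [pow_two, b2]) gu) hx with rfl | rfl | rfl | rfl <;> simp

theorem blkHom {t : G} (ht : ρ t = diagonal ![1, -1, -1]) :
    ∃ ψ : centralizer ({t} : Set G) →* Matrix (Fin 2) (Fin 2) F,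
      ∀ g, ψ g = !![ρ g 1 1, ρ g 1 2; ρ g 2 1, ρ g 2 2] :=
  ⟨{ toFun := fun g => !![ρ g 1 1, ρ g 1 2; ρ g 2 1, ρ g 2 2]
     map_one' := by ext i j; fin_cases i <;> fin_cases j <;> simp
     map_mul' := fun a b => by
      obtain ⟨-, -, a3, a4⟩ := h.blk ht (mem_centralizer_singleton_iff.1 a.2)
      ext i j
      fin_cases i <;> fin_cases j <;>
        simp [mul_apply, Fin.sum_univ_three, Fin.sum_univ_two, a3, a4] }, fun _ => rfl⟩

theorem ex_phi {t u : G} (t2 : t * t = 1) (u2 : u * u = 1) (t1 : t ≠ 1) (u1 : u ≠ 1) (tu : t ≠ u)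
    (hc : t * u = u * t) : ∃ φ : centralizer ({t} : Set G) →* PGL(2, F),
      ∀ g, φ g = 1 → ∃ a b : F, ρ g = a • 1 + b • ρ t := by
  obtain ⟨ρ', k, k', h', k1, -, -, hρ, ht, -⟩ := h.diag t2 u2 t1 u1 tu hc
  obtain ⟨ψ, hψ⟩ := h'.blkHom ht
  refine ⟨ProjGenLinGroup.mk.comp ψ.toHomUnits, fun g hg => ?_⟩
  obtain ⟨y, hy⟩ := GeneralLinearGroup.mem_center_iff_val_mem_range_scalar.1
    (ProjGenLinGroup.mk_eq_one.1 hg)
  rw [MonoidHom.coe_toHomUnits, hψ] at hy
  obtain ⟨a1, a2, a3, a4⟩ := h'.blk ht (mem_centralizer_singleton_iff.1 g.2)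
  have b1 : ρ' g 1 1 = y := by simpa using (congrFun (congrFun hy 0) 0).symm
  have b2 : ρ' g 1 2 = 0 := by simpa using (congrFun (congrFun hy 0) 1).symm
  have b3 : ρ' g 2 1 = 0 := by simpa using (congrFun (congrFun hy 1) 0).symm
  have b4 : ρ' g 2 2 = y := by simpa using (congrFun (congrFun hy 1) 1).symm
  have h2 := h.two
  have : ρ' g = ((ρ' g 0 0 + y) / 2) • 1 + ((ρ' g 0 0 - y) / 2) • ρ' t := by
    rw [ht]
    ext i j
    fin_cases i <;> fin_cases j <;> simp [*] <;> field_simp <;> ring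
  refine ⟨(ρ' g 0 0 + y) / 2, (ρ' g 0 0 - y) / 2, ?_⟩
  rw [hρ g, hρ t]
  conv_lhs => rw [this]
  simp [mul_add, add_mul, k1]

theorem scal {t u g : G} (t2 : t * t = 1) (u2 : u * u = 1) (t1 : t ≠ 1) (u1 : u ≠ 1) (tu : t ≠ u)
    (hc : t * u = u * t) {a b c d : F} (e1 : ρ g = a • 1 + b • ρ t) (e2 : ρ g = c • 1 + d • ρ u) :
    π g = 1 := by
  obtain ⟨ρ', k, k', -, -, k2, hρ, -, ht, hu⟩ := h.diag t2 u2 t1 u1 tu hc
  have e : a • 1 + b • ρ' t = c • 1 + d • ρ' u := by
    have := congrArg (fun X => k' * X * k) (e1.symm.trans e2)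
    simpa [mul_add, add_mul, k2, ← hρ] using this
  rw [ht, hu] at e
  have f1 := congrFun (congrFun e 1) 1
  have f2 := congrFun (congrFun e 2) 2
  simp at f1 f2
  have : d = 0 := (mul_eq_zero.1 (by linear_combination f2 - f1 : 2 * d = 0)).resolve_left h.two
  exact (h.ker g).2 ⟨c, by rw [e2, this, zero_smul, add_zero]⟩

theorem no_p {t u g : G} (t2 : t * t = 1) (u2 : u * u = 1) (t1 : t ≠ 1) (u1 : u ≠ 1) (tu : t ≠ u)
    (hc : t * u = u * t) (p : ℕ) [Fact p.Prime] [CharP F p] (gt : g * t = t * g) (hg : g ^ p = 1) :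
    g = 1 := by
  obtain ⟨ρ', k, k', h', -, -, -, -, ht, -⟩ := h.diag t2 u2 t1 u1 tu hc
  obtain ⟨ψ, hψ⟩ := h'.blkHom ht
  obtain ⟨a1, a2, a3, a4⟩ := h'.blk ht gt
  let g' : centralizer ({t} : Set G) := ⟨g, mem_centralizer_singleton_iff.2 gt⟩
  have hn : IsNilpotent (ψ g' - 1) := ⟨p, by
    rw [sub_pow_char_of_commute p (Commute.one_right _), ← map_pow,
      show g' ^ p = 1 from Subtype.ext hg, map_one, one_pow, sub_self]⟩
  have n1 := (isNilpotent_trace_of_isNilpotent hn).eq_zero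
  have n2 : (ψ g' - 1).det = 0 := by
    obtain ⟨n, hn⟩ := hn
    have := congrArg Matrix.det hn
    rw [det_pow, det_zero] at this
    exact (pow_eq_zero_iff'.1 this).1
  have hd := h'.det g
  rw [hψ] at n1 n2
  rw [det_fin_three] at hd
  simp [trace_fin_two, det_fin_two, g'] at n1 n2
  rw [a1, a2, a3, a4] at hd
  have a0 : ρ' g 0 0 = 1 := by linear_combination hd - ρ' g 0 0 * n1 - ρ' g 0 0 * n2
  refine h'.ntv g ?_
  ext i j
  fin_cases i <;> fin_cases j <;> simp [mul_apply, Fin.sum_univ_three, a0, a1, a2, a3, a4]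
  · linear_combination (ρ' g 1 1 - 1) * n1 - n2
  · linear_combination (ρ' g 1 2) * n1
  · linear_combination (ρ' g 2 1) * n1
  · linear_combination (ρ' g 2 2 - 1) * n1 - n2

end Ct

end Cfsg.Agent.H15M
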