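import Cfsg.Agent.H15M.C
import Cfsg.Agent.H12.PSL2Dih
import Cfsg.Agent.H12.DicksonSL
import Cfsg.Agent.S0102

/-! Abelian subgroups permuted by a torus. -/

set_option autoImplicit false

namespace Cfsg.Agent.H15M

open Matrix Subgroup Cfsg.Agent.H12
open scoped MatrixGroups

variable {G S F : Type*} [Group G] [Group S] [Field F]

def u3 (v : ZMod 3 × ZMod 3) : SL(3, ZMod 3) :=
  ⟨!![1, 0, v.1; 0, 1, v.2; 0, 0, 1], by simp [det_fin_three]⟩

def x3 : SL(3, ZMod 3) := ⟨!![1, -1, 0; 1, 1, 0; 0, 0, -1], by decide⟩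

def r3 : SL(3, ZMod 3) := ⟨!![1, 0, 0; 0, -1, 0; 0, 0, -1], by decide⟩

namespace Ct

variable {ρ : G →* Matrix (Fin 3) (Fin 3) F} {π : G →* S} (h : Ct ρ π)
include h

theorem ex_z {g g' : G} (e : π g = π g') : ∃ z, g = z * g' ∧ ∀ x, z * x = x * z :=
  ⟨g * g'⁻¹, by simp, h.cent (by simp [e])⟩

theorem cj_eq {a a' : G} (e : π a = π a') (g : G) : a * g * a⁻¹ = a' * g * a'⁻¹ := by
  obtain ⟨z, rfl, hz⟩ := h.ex_z e
  rw [show z * a' * g * (z * a')⁻¹ = z * (a' * g * a'⁻¹) * z⁻¹ by group, hz, mul_inv_cancel_right]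

theorem comm_of {g g' a a' : G} (e : π g = π a) (e' : π g' = π a') (hc : a * a' = a' * a) :
    g * g' = g' * g := by
  have h1 := h.cj_eq e g'
  have h2 := h.cj_eq e' a
  rw [← hc, mul_inv_cancel_right, mul_inv_eq_iff_eq_mul] at h2
  rw [← h2, mul_inv_cancel_right, mul_inv_eq_iff_eq_mul] at h1
  exact h1

theorem bS {R : Type*} [AddCommGroup R] (u : R → S) (ua : ∀ a b, u (a + b) = u a * u b) (s : ℕ)
    (hs : (s : F) ≠ 0) (hR : ∀ b : R, s • b = 0) (x : Fin 4 → S) (hx : ∀ i j, x i * x j = x j * x i)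
    (c : Fin 4 → R → R) (hc : ∀ i b, x i * u b * (x i)⁻¹ = u (c i b))
    (hsur : ∀ i j, i ≠ j → ∀ y, ∃ b, c i b = y + c j b)
    (hab : ∀ g g' a b, π g = u a → π g' = u b → g * g' = g' * g) (b : R) : u b = 1 := by
  choose X hX using fun i => h.surj (x i)
  choose U hU using fun b => h.surj (u b)
  let φ : G → G := fun g => X 0 * g * (X 0)⁻¹ * (X 1 * g * (X 1)⁻¹)⁻¹
  have φc : ∀ g g', π g = π g' → φ g = φ g' := fun g g' e => by
    obtain ⟨z, rfl, hz⟩ := h.ex_z e
    have : ∀ i, X i * (z * g') * (X i)⁻¹ = X i * g' * (X i)⁻¹ * z := fun i => by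
      rw [← hz, ← mul_assoc, ← hz]; simp only [mul_assoc]
    simp only [φ, this]
    group
  have pc : ∀ i b, π (X i * U b * (X i)⁻¹) = u (c i b) := fun i b => by simp [hX, hU, hc]
  have La : ∀ a b, φ (U (a + b)) = φ (U a) * φ (U b) := fun a b => by
    rw [φc _ (U a * U b) (by simp [hU, ua])]
    have e1 := hab _ _ _ _ (pc 1 a) (pc 0 b)
    have e2 := hab _ _ _ _ (pc 1 a) (pc 1 b)
    have e : ∀ i, X i * (U a * U b) * (X i)⁻¹ = X i * U a * (X i)⁻¹ * (X i * U b * (X i)⁻¹) :=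
      fun i => by group
    simp only [φ, e]
    generalize X 0 * U a * (X 0)⁻¹ = A0 at *
    generalize X 1 * U a * (X 1)⁻¹ = A1 at *
    generalize X 0 * U b * (X 0)⁻¹ = B0 at *
    generalize X 1 * U b * (X 1)⁻¹ = B1 at *
    rw [e2, mul_assoc A0 A1⁻¹, ← mul_assoc A1⁻¹, (show Commute A1 B0 from e1).inv_left.eq]
    group
  have Lc : ∀ i b, X i * φ (U b) * (X i)⁻¹ = φ (U (c i b)) := fun i b => by
    rw [← φc _ _ ((pc i b).trans (hU _).symm)]
    have e : ∀ j, X j * (X i * U b * (X i)⁻¹) * (X j)⁻¹ = X i * (X j * U b * (X j)⁻¹) * (X i)⁻¹ :=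
      fun j => by
        have := h.cj_eq (a := X j * X i) (a' := X i * X j) (by simp [hX, hx i j]) (U b)
        simpa only [_root_.mul_inv_rev, mul_assoc] using this
    simp only [φ, e]
    group
  obtain ⟨b', hb'⟩ := hsur 0 1 (by decide) b
  have := b0 (fun b => ρ (φ (U b))) (by
      have := La 0 0
      rw [add_zero, left_eq_mul] at this
      simp only [this, map_one]) (fun a b => by simp only [La, map_mul]) s hs hR
    (fun i => ρ (X i)⁻¹) (fun i => ρ (X i)) (fun i => by rw [← map_mul, mul_inv_cancel, map_one]) c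
    (fun i b => by simp only [← map_mul, ← Lc]; congr 1; group) hsur b'
  have := congrArg π (h.inj (this.trans (map_one ρ).symm))
  simp only [φ] at this
  rwa [map_mul, map_inv, pc, pc, hb', ua, mul_inv_cancel_right, map_one] at this

theorem cyc {x y : S} (r : ℕ) [Fact r.Prime] (hr : (r : F) ≠ 0) (hx : x ^ r = 1) (k : ℕ)
    (hy : y * x * y⁻¹ = x ^ k)
    (hk : ∀ i j : Fin 4, i ≠ j → (k : ZMod r) ^ (i : ℕ) ≠ (k : ZMod r) ^ (j : ℕ)) : x = 1 := by
  have key : ∀ m n : ℕ, (m : ZMod r) = n → x ^ m = x ^ n := fun m n e => by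
    rw [pow_eq_pow_mod m hx, pow_eq_pow_mod n hx, (ZMod.natCast_eq_natCast_iff' _ _ _).1 e]
  have hi : ∀ i : ℕ, y ^ i * x * (y ^ i)⁻¹ = x ^ k ^ i := fun i => by
    induction i with
    | zero => simp
    | succ n ih =>
      rw [pow_succ' y, pow_succ' k, pow_mul, ← hy, conj_pow, ← ih]; group
  obtain ⟨X, rfl⟩ := h.surj x
  have := h.bS (fun b : ZMod r => π X ^ b.val) (fun a b => by
      rw [← pow_add]; exact key _ _ (by simp)) r hr (fun b => by simp) (fun i => y ^ (i : ℕ))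
    (fun i j => by rw [← pow_add, ← pow_add, add_comm]) (fun i b => (k : ZMod r) ^ (i : ℕ) * b)
    (fun i b => by rw [← conj_pow, hi, ← pow_mul]; exact key _ _ (by simp))
    (fun i j hij z => ⟨z / ((k : ZMod r) ^ (i : ℕ) - (k : ZMod r) ^ (j : ℕ)), by
      have := sub_ne_zero.2 (hk i j hij)
      field_simp
      ring⟩)
    (fun g g' a b e e' => h.comm_of (a := X ^ a.val) (a' := X ^ b.val) (by simpa using e)
      (by simpa using e') (by rw [← pow_add, ← pow_add, add_comm])) 1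
  rwa [ZMod.val_one, pow_one] at this

theorem a7 (e : S ≃* alternatingGroup (Fin 7)) : (5 : F) = 0 := by
  by_contra h5
  have hk : ∀ i j : Fin 4, i ≠ j → ((2 : ℕ) : ZMod 5) ^ (i : ℕ) ≠ ((2 : ℕ) : ZMod 5) ^ (j : ℕ) := by
    decide
  haveI : Fact (Nat.Prime 5) := ⟨by norm_num⟩
  let x : alternatingGroup (Fin 7) := ⟨Equiv.swap 0 1 * Equiv.swap 1 2 * Equiv.swap 2 3 * Equiv.swap 3 4,
    by simp [Equiv.Perm.mem_alternatingGroup, Equiv.Perm.sign_swap']⟩
  let y : alternatingGroup (Fin 7) := ⟨Equiv.swap 1 2 * Equiv.swap 2 4 * Equiv.swap 4 3 * Equiv.swap 5 6,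
    by simp [Equiv.Perm.mem_alternatingGroup, Equiv.Perm.sign_swap']⟩
  have := h.cyc (x := e.symm x) (y := e.symm y) 5 (by simpa using h5)
    (by rw [← map_pow, show x ^ 5 = 1 from Subtype.ext (by decide), map_one]) 2
    (by rw [← map_inv, ← map_mul, ← map_mul, ← map_pow,
      show y * x * y⁻¹ = x ^ 2 from Subtype.ext (by decide)]) hk
  exact absurd (congrArg Subtype.val ((map_eq_one_iff _ e.symm.injective).1 this)) (by decide)

theorem l33 (e : S ≃* PSL(3, ZMod 3)) : (3 : F) = 0 := by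
  by_contra h3
  let f : SL(3, ZMod 3) →* S := e.symm.toMonoidHom.comp (QuotientGroup.mk' _)
  let u := u3
  let x := x3
  let r := r3
  let c : ZMod 3 × ZMod 3 → ZMod 3 × ZMod 3 := fun v => (v.2 - v.1, -v.1 - v.2)
  have ua : ∀ a b, u (a + b) = u a * u b := by decide
  have hx : ∀ b, x * u b = u (c b) * x := by decide
  have hi : ∀ (i : ℕ) b, x ^ i * u b * (x ^ i)⁻¹ = u (c^[i] b) := fun i b => by
    induction i with
    | zero => simp
    | succ n ih =>
      rw [pow_succ' x, Function.iterate_succ_apply', ← mul_inv_eq_iff_eq_mul.2 (hx _), ← ih]; group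
  obtain ⟨A, hA⟩ := h.surj (f (u (1, 0)))
  obtain ⟨B, hB⟩ := h.surj (f (u (0, 1)))
  obtain ⟨R, hR⟩ := h.surj (f r)
  have hAB : A * B = B * A := by
    obtain ⟨z, e, hz⟩ := h.ex_z (g := A * B) (g' := B * A) (by
      simp only [map_mul, hA, hB]
      rw [← map_mul, ← map_mul, ← ua, ← ua, add_comm])
    have r1 : π (R * A * R⁻¹) = π A⁻¹ := by
      simp only [map_mul, map_inv, hA, hR]
      rw [← map_inv, ← map_inv, ← map_mul, ← map_mul]
      congr 1
      rw [mul_inv_eq_iff_eq_mul, eq_inv_mul_iff_mul_eq]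
      decide
    have r2 : π (R * B * R⁻¹) = π B := by
      simp only [map_mul, map_inv, hB, hR]
      rw [← map_inv, ← map_mul, ← map_mul]
      congr 1
      rw [mul_inv_eq_iff_eq_mul]
      decide
    obtain ⟨w, hw, hw'⟩ := h.ex_z r2
    have e1 := h.cj_eq r1 (R * B * R⁻¹)
    have e2 : R * A * R⁻¹ * (R * B * R⁻¹) * (R * A * R⁻¹)⁻¹ = z * (R * B * R⁻¹) := by
      rw [show R * A * R⁻¹ * (R * B * R⁻¹) * (R * A * R⁻¹)⁻¹ = R * (A * B) * A⁻¹ * R⁻¹ by group, e,
        ← mul_assoc, ← mul_assoc, ← hz]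
      group
    rw [e2, hw, inv_inv, ← mul_assoc, ← mul_assoc, ← hw', ← hw', mul_assoc w, mul_assoc w, mul_assoc w,
      mul_right_inj, mul_assoc, eq_inv_mul_iff_mul_eq, ← mul_assoc, ← hz, mul_assoc, e,
      ← mul_assoc, mul_eq_right] at e1
    have := h.eq_one (z := z) (m := 2) (by
      have := congrArg π e
      simp only [map_mul, hA, hB] at this
      rwa [← map_mul, ← map_mul, ← ua, ← ua, add_comm, right_eq_mul] at this) (by norm_num)
      (by rw [pow_two, e1])
    rw [e, this, one_mul]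
  have hv : ∀ v, u v = u (1, 0) ^ v.1.val * u (0, 1) ^ v.2.val := by decide
  have := h.bS (fun b => f (u b)) (fun a b => by rw [ua, map_mul]) 3 (by simpa using h3) (by decide)
    (fun i => f (x ^ (i : ℕ))) (fun i j => by rw [← map_mul, ← map_mul, ← pow_add, ← pow_add, add_comm])
    (fun i b => c^[i] b) (fun i b => by rw [← map_inv, ← map_mul, ← map_mul, hi]) (by decide)
    (fun g g' a b e e' => h.comm_of (a := A ^ a.1.val * B ^ a.2.val) (a' := A ^ b.1.val * B ^ b.2.val)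
      (by rw [e, hv]; simp [hA, hB]) (by rw [e', hv]; simp [hA, hB]) (by
        have c : Commute A B := hAB
        exact Commute.mul_left (Commute.mul_right (Commute.pow_pow_self ..) (c.pow_pow ..))
          (Commute.mul_right (c.symm.pow_pow ..) (Commute.pow_pow_self ..)))) (1, 0)
  have := (QuotientGroup.eq_one_iff _).1 ((map_eq_one_iff _ e.symm.injective).1 this)
  exact absurd (mem_center_iff.1 this r) (by decide)

end Ct

end Cfsg.Agent.H15M
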