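import Cfsg.Agent.H15M.D

/-! The case of `PSL₂`. -/

set_option autoImplicit false

namespace Cfsg.Agent.H15M

open Matrix Subgroup Cfsg.Agent.H12
open scoped MatrixGroups

variable {G S F : Type*} [Group G] [Group S] [Field F]

def dg2 {R : Type*} [Field R] (a : Rˣ) : SL(2, R) := mkSL2 a 0 0 (a⁻¹ : Rˣ) (by simp)

theorem dg2_comm {R : Type*} [Field R] (a b : Rˣ) : dg2 a * dg2 b = dg2 b * dg2 a := by
  ext i j; fin_cases i <;> fin_cases j <;> simp [dg2, mul_apply, Fin.sum_univ_two, mul_comm]

theorem dg2_upper {R : Type*} [Field R] (a : Rˣ) (b : R) :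
    dg2 a * upper b * (dg2 a)⁻¹ = upper (a ^ 2 * b) := by
  rw [mul_inv_eq_iff_eq_mul]
  ext i j; fin_cases i <;> fin_cases j <;> simp [dg2, mul_apply, Fin.sum_univ_two]
  field_simp

theorem real_of_sq {R : Type*} [Field R] {i : R} (hi : i * i = -1) {A : SL(2, R)}
    (hA : A.1.trace ^ 2 = 4) : ∃ w : SL(2, R), w * A * w⁻¹ = A⁻¹ := by
  have hd := A.2
  rw [det_fin_two] at hd
  rw [trace_fin_two] at hA
  refine ⟨mkSL2 i (-i * (A.1 0 0 - A.1 1 1) / A.1 1 0) 0 (-i) (by linear_combination -hi), ?_⟩
  rw [mul_inv_eq_iff_eq_mul, eq_inv_mul_iff_mul_eq]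
  by_cases h0 : A.1 1 0 = 0
  · have : A.1 0 0 = A.1 1 1 := sub_eq_zero.1 (pow_eq_zero_iff (two_ne_zero) |>.1 (by
      rw [h0] at hd; linear_combination hA - 4 * hd))
    rw [h0, this] at hd
    ext a b
    fin_cases a <;> fin_cases b <;> simp [mul_apply, Fin.sum_univ_two, vecMul, dotProduct, h0, this]
    · linear_combination i * hd
    · ring
    · linear_combination i * hd
  · ext a b
    fin_cases a <;> fin_cases b <;> simp [mul_apply, Fin.sum_univ_two, vecMul, dotProduct] <;>
      field_simp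
    · linear_combination i * hd
    · linear_combination (-i * (A.1 0 0 - A.1 1 1)) * hd
    · ring
    · linear_combination (-i) * hd

theorem unip2 {R : Type*} [Field R] (s : ℕ) [hs : Fact s.Prime] [CharP R s] {A : SL(2, R)}
    (hA : A.1.trace ^ 2 = 4) : (A : PSL(2, R)) ^ s = 1 := by
  have key : ∀ B : SL(2, R), B.1.trace = 2 → B ^ s = 1 := fun B hB => by
    have hd := B.2
    rw [det_fin_two] at hd
    rw [trace_fin_two] at hB
    have h2 : (B.1 - 1) ^ 2 = 0 := by
      ext a b
      fin_cases a <;> fin_cases b <;> simp [pow_two, mul_apply, Fin.sum_univ_two]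
      · linear_combination (B.1 0 0) * hB - hd
      · linear_combination (B.1 0 1) * hB
      · linear_combination (B.1 1 0) * hB
      · linear_combination (B.1 1 1) * hB - hd
    have := pow_eq_zero_of_le hs.out.two_le h2
    rw [sub_pow_char_of_commute s (Commute.one_right _), one_pow, sub_eq_zero] at this
    exact Subtype.ext this
  rcases sq_eq_sq_iff_eq_or_eq_neg.1 (hA.trans (by norm_num : (4 : R) = 2 ^ 2)) with e | e
  · rw [← QuotientGroup.mk_pow, key A e]; rfl
  · rw [psl2_mk_eq_mk_iff.2 (.inr (neg_neg A).symm), ← QuotientGroup.mk_pow, key (-A) (by simp [e])]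
    rfl

namespace Ct

variable {ρ : G →* Matrix (Fin 3) (Fin 3) F} {π : G →* S} (h : Ct ρ π)
include h

theorem psl_le {R : Type*} [Field R] [Fintype R] (ho : Odd (Fintype.card R)) (e : S ≃* PSL(2, R))
    (s : ℕ) [CharP R s] (hs : (s : F) ≠ 0) : Fintype.card R ≤ 9 := by
  classical
  by_contra hlt
  let f : SL(2, R) →* S := e.symm.toMonoidHom.comp (QuotientGroup.mk' _)
  have fu : ∀ b, f (upper b) = 1 → b = 0 := fun b hb => by
    rcases psl2_mk_eq_one_iff.1 ((map_eq_one_iff _ e.symm.injective).1 hb) with e | e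
    · exact upper_injective (e.trans upper_zero.symm)
    · have : (1 : R) = -1 := by simpa using congrArg (fun g : SL(2, R) => g 0 0) e
      exact (two_ne_zero_of_odd_card ho (by linear_combination this)).elim
  choose U hU using fun b => h.surj (f (upper b))
  have Ua : ∀ a b, π (U (a + b)) = π (U a * U b) := fun a b => by simp [hU, upper_add]
  by_cases hn : ∃ b₀ ≠ 0, ∀ b, U b₀ * U b = U b * U b₀
  · obtain ⟨b₀, h0, hb⟩ := hn
    have sq : ∀ t b, U (t ^ 2 * b₀) * U b = U b * U (t ^ 2 * b₀) := fun t b => by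
      rcases eq_or_ne t 0 with rfl | ht
      · exact h.cent (by simp [hU]) _
      obtain ⟨X, hX⟩ := h.surj (f (dg2 (Units.mk0 t ht)))
      have hc : ∀ b, π (U (t ^ 2 * b)) = π (X * U b * X⁻¹) := fun b => by
        simp only [map_mul, map_inv, hX, hU]
        rw [← map_inv, ← map_mul, ← map_mul, dg2_upper]; rfl
      refine h.comm_of (hc b₀) (a' := X * U (b / t ^ 2) * X⁻¹) (by
        rw [← hc, mul_div_cancel₀ _ (pow_ne_zero 2 ht)]) ?_
      rw [conj_mul, conj_mul, hb]
    have all : ∀ a b, U a * U b = U b * U a := fun a b => by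
      obtain ⟨x, y, hxy⟩ := FiniteField.exists_root_sum_quadratic
        (f := Polynomial.X ^ 2) (g := Polynomial.X ^ 2 - Polynomial.C (a / b₀))
        (Polynomial.degree_X_pow 2) (Polynomial.degree_X_pow_sub_C (by norm_num) _)
        (Nat.odd_iff.1 ho)
      simp only [Polynomial.eval_pow, Polynomial.eval_X, Polynomial.eval_sub,
        Polynomial.eval_C] at hxy
      have : a = x ^ 2 * b₀ + y ^ 2 * b₀ := by
        field_simp at hxy
        linear_combination -hxy
      rw [this]
      exact h.comm_of (Ua _ _) rfl (Commute.mul_left (sq x b) (sq y b))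
    obtain ⟨g, hg⟩ := IsCyclic.exists_ofOrder_eq_natCard (α := Rˣ)
    rw [Nat.card_units, Nat.card_eq_fintype_card] at hg
    refine one_ne_zero (fu 1 (h.bS (fun b => f (upper b)) (fun a b => by rw [upper_add, map_mul]) s hs
      (fun b => by simp) (fun i => f (dg2 (g ^ (i : ℕ))))
      (fun i j => by rw [← map_mul, dg2_comm, map_mul]) (fun i b => ((g ^ (i : ℕ) : Rˣ) : R) ^ 2 * b)
      (fun i b => by rw [← map_inv, ← map_mul, ← map_mul, dg2_upper]) (fun i j hij z => ?_)
      (fun g g' a b e e' => h.comm_of (e.trans (hU a).symm) (e'.trans (hU b).symm) (all a b)) 1))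
    have : ((g ^ (i : ℕ) : Rˣ) : R) ^ 2 - ((g ^ (j : ℕ) : Rˣ) : R) ^ 2 ≠ 0 := fun e => by
      rw [sub_eq_zero, ← Units.val_pow_eq_pow_val, ← Units.val_pow_eq_pow_val, Units.val_inj,
        ← pow_mul, ← pow_mul] at e
      have := pow_injOn_Iio_orderOf (x := g) (x₁ := i * 2) (x₂ := j * 2)
        (by simp only [Set.mem_Iio]; omega) (by simp only [Set.mem_Iio]; omega) e
      exact hij (Fin.ext (by omega))
    refine ⟨z / (((g ^ (i : ℕ) : Rˣ) : R) ^ 2 - ((g ^ (j : ℕ) : Rˣ) : R) ^ 2), ?_⟩
    field_simp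
    ring
  · push Not at hn
    have hz : ∀ b a, π (U a * U b * (U b * U a)⁻¹) = 1 := fun b a => by
      rw [map_mul, map_inv, ← Ua, ← Ua, add_comm, mul_inv_cancel]
    choose ζ hζ using fun b a => (h.ker _).1 (hz b a)
    refine hlt (b1 (fun b => ρ (U b)) (fun b => ρ (U b)⁻¹)
      (fun a => by rw [← map_mul, mul_inv_cancel, map_one]) ζ (fun a b => ?_) fun b b' hb => ?_)
    · rw [← map_mul, ← map_mul, ← one_mul (ρ (U b * U a)), ← smul_mul_assoc, ← hζ, ← map_mul,
        inv_mul_cancel_right]
    · by_contra hne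
      obtain ⟨a, ha⟩ := hn (b - b') (sub_ne_zero.2 hne)
      have e1 := h.inj ((hζ b a).trans ((congrArg (· • (1 : Matrix _ _ F)) (congrFun hb a)).trans
        (hζ b' a).symm))
      refine ha (h.comm_of (a := (U b')⁻¹ * U b) (a' := U a) ?_ rfl ?_)
      · rw [map_mul, map_inv, eq_inv_mul_iff_mul_eq, ← map_mul, ← Ua, add_sub_cancel]
      · rw [mul_assoc, inv_mul_eq_iff_eq_mul]
        calc U b * U a = (U a * U b * (U b * U a)⁻¹)⁻¹ * (U a * U b) := by group
          _ = _ := by rw [e1]; group

theorem inj_pi [Finite G] [Finite S] (hG : commutator G = ⊤) (hS : commutator S = ⊤)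
    (hc : (3 : F) ≠ 0 → ∀ P : Sylow 3 S, IsCyclic P) : Function.Injective π := by
  refine (injective_iff_map_eq_one _).2 fun z hz => ?_
  by_cases h3 : (3 : F) = 0
  · obtain ⟨c, hc⟩ := (h.ker z).1 hz
    have := h.det z
    rw [hc, det_smul, det_one, mul_one, Fintype.card_fin] at this
    have : c - 1 = 0 := pow_eq_zero_iff (n := 3) (by norm_num) |>.1 (by
      linear_combination this + (c - c ^ 2) * h3)
    exact h.inj (by rw [hc, sub_eq_zero.1 this, one_smul, map_one])
  · by_contra z1
    haveI : Fact (Nat.Prime 3) := ⟨by norm_num⟩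
    refine S0102.result hS (hc h3) π h.surj (fun x hx => mem_center_iff.2 fun g => (h.cent hx g).symm)
      hG ?_
    rw [← orderOf_eq_prime (h.cube hz) z1]
    exact π.ker.orderOf_dvd_natCard hz

theorem psl_tr [Finite G] [Finite S] (hG : commutator G = ⊤) (hS : commutator S = ⊤)
    {R : Type*} [Field R] [Fintype R] (e : S ≃* PSL(2, R)) (s : ℕ) [hs : Fact s.Prime] [CharP R s]
    (hs2 : s ≠ 2) (hh : (s : F) = 0 ∨ Fintype.card R = 5) (g : G) :
    (ρ g⁻¹).trace = (ρ g).trace := by
  have hi := h.inj_pi hG hS fun h3 P => by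
    let j : S →* PGL(2, R) := ProjectiveSpecialLinearGroup.toPGL.comp e.toMonoidHom
    have hj : Function.Injective j := ProjectiveSpecialLinearGroup.toPGL_injective.comp e.injective
    let ε := (P : Subgroup S).equivMapOfInjective j hj
    haveI : Fact (Nat.Prime 3) := ⟨by norm_num⟩
    obtain ⟨n, hn⟩ := P.isPGroup'.exists_card_eq
    have hc : Nat.card ((P : Subgroup S).map j) = 3 ^ n := (Nat.card_congr ε.toEquiv).symm.trans hn
    have := isCyclic_of_odd_pgl2 s ((P : Subgroup S).map j) (by rw [hc]; exact Odd.pow (by decide))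
      (by
        rw [hc]
        intro hd
        obtain rfl := (Nat.prime_dvd_prime_iff_eq hs.out Nat.prime_three).1 (hs.out.dvd_of_dvd_pow hd)
        rcases hh with hh | hh
        · exact h3 (by simpa using hh)
        · have := char_dvd_natCard (F := R) 3
          rw [Nat.card_eq_fintype_card, hh] at this
          omega)
    exact isCyclic_of_surjective ε.symm ε.symm.surjective
  obtain ⟨A, hA⟩ := QuotientGroup.mk_surjective (e (π g))
  have real : (∃ w : SL(2, R), w * A * w⁻¹ = A⁻¹) → (ρ g⁻¹).trace = (ρ g).trace := by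
    rintro ⟨w, hw⟩
    obtain ⟨W, hW⟩ := h.surj (e.symm w)
    have : W * g * W⁻¹ = g⁻¹ := hi (e.injective (by
      simp only [map_mul, map_inv, hW, MulEquiv.apply_symm_apply, ← hA]
      exact congrArg (QuotientGroup.mk' _) hw))
    rw [← this, map_mul, trace_mul_comm, ← map_mul, ← mul_assoc, inv_mul_cancel, one_mul]
  by_cases ht : A.1.trace ^ 2 = 4
  swap
  · exact real ((exists_inverting ht).imp fun _ h => h.1)
  rcases hh with hh | hh
  · haveI : CharP F s := (CharP.charP_iff_prime_eq_zero hs.out).2 hh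
    have key : ∀ x : G, x ^ s = 1 → (ρ x).trace = 3 := fun x hx => by
      have := (isNilpotent_trace_of_isNilpotent (M := ρ x - 1) ⟨s, by
        rw [sub_pow_char_of_commute s (Commute.one_right _), ← map_pow, hx, map_one, one_pow,
          sub_self]⟩).eq_zero
      rw [trace_sub, sub_eq_zero] at this
      simpa using this
    have gs : g ^ s = 1 := hi (e.injective (by rw [map_pow, map_pow, ← hA, unip2 s ht, map_one, map_one]))
    rw [key g gs, key g⁻¹ (by rw [inv_pow, gs, inv_one])]
  · have := FiniteField.cast_card_eq_zero R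
    rw [hh] at this
    exact real (real_of_sq (i := 2) (by push_cast at this; linear_combination this) ht)

end Ct

end Cfsg.Agent.H15M
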